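import Mathlib

/-!
# S0746 (Livingstone–Wagner, first form): interface of the team project "LW"

`HT G j` : elementwise `j`-transitivity; `HH G j` : `j`-homogeneity (on `Finset`s);
`Triv G j` : only the identity of `G` fixes `j` distinct points; `NoInv G j` : no involution of `G`
fixes `j` distinct points; `PS G s`, `SS G s` : pointwise and setwise stabiliser of a `Finset`;
`Rigid G k` : `G` is `(k-2)`-transitive, `(k-1)`- and `k`-homogeneous, not `(k-1)`-transitive,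
`3 ≤ k`, `2k ≤ n`.  Only definitions and package statements (`Prop`s).
-/

set_option autoImplicit false

namespace Cfsg.Agent.Lib.Helper75.LW

universe u

section defs

variable {α : Type u}

/-- elementwise `j`-transitivity -/
def HT (G : Subgroup (Equiv.Perm α)) (j : ℕ) : Prop :=
  ∀ x y : Fin j ↪ α, ∃ g ∈ G, ∀ i, g (x i) = y i

/-- `j`-homogeneity: any `j`-set is mapped onto any other by some element of `G` -/
def HH (G : Subgroup (Equiv.Perm α)) (j : ℕ) : Prop :=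
  ∀ s s' : Finset α, s.card = j → s'.card = j → ∃ g ∈ G, ∀ a, a ∈ s ↔ g a ∈ s'

/-- only the identity of `G` fixes `j` distinct points -/
def Triv (G : Subgroup (Equiv.Perm α)) (j : ℕ) : Prop :=
  ∀ s : Finset α, s.card = j → ∀ g ∈ G, (∀ a ∈ s, g a = a) → g = 1

/-- no involution of `G` fixes `j` distinct points -/
def NoInv (G : Subgroup (Equiv.Perm α)) (j : ℕ) : Prop :=
  ∀ s : Finset α, s.card = j → ∀ g ∈ G, g * g = 1 → (∀ a ∈ s, g a = a) → g = 1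

/-- the pointwise stabiliser of `s` in `G` -/
def PS (G : Subgroup (Equiv.Perm α)) (s : Finset α) : Subgroup (Equiv.Perm α) where
  carrier := {g | g ∈ G ∧ ∀ a ∈ s, g a = a}
  mul_mem' := by
    rintro g h ⟨hg, hg'⟩ ⟨hh, hh'⟩
    refine ⟨G.mul_mem hg hh, fun a ha => ?_⟩
    rw [Equiv.Perm.mul_apply, hh' a ha, hg' a ha]
  one_mem' := ⟨G.one_mem, fun _ _ => rfl⟩
  inv_mem' := by
    rintro g ⟨hg, hg'⟩
    refine ⟨G.inv_mem hg, fun a ha => ?_⟩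
    rw [Equiv.Perm.inv_eq_iff_eq]
    exact (hg' a ha).symm

theorem mem_PS {G : Subgroup (Equiv.Perm α)} {s : Finset α} {g : Equiv.Perm α} :
    g ∈ PS G s ↔ g ∈ G ∧ ∀ a ∈ s, g a = a := Iff.rfl

/-- the setwise stabiliser of `s` in `G` -/
def SS (G : Subgroup (Equiv.Perm α)) (s : Finset α) : Subgroup (Equiv.Perm α) where
  carrier := {g | g ∈ G ∧ ∀ a, g a ∈ s ↔ a ∈ s}
  mul_mem' := by
    rintro g h ⟨hg, hg'⟩ ⟨hh, hh'⟩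
    refine ⟨G.mul_mem hg hh, fun a => ?_⟩
    rw [Equiv.Perm.mul_apply, hg', hh']
  one_mem' := ⟨G.one_mem, fun _ => Iff.rfl⟩
  inv_mem' := by
    rintro g ⟨hg, hg'⟩
    refine ⟨G.inv_mem hg, fun a => ?_⟩
    have h := hg' (g⁻¹ a)
    have e : g (g⁻¹ a) = a := by simp
    rw [e] at h
    exact h.symm

theorem mem_SS {G : Subgroup (Equiv.Perm α)} {s : Finset α} {g : Equiv.Perm α} :
    g ∈ SS G s ↔ g ∈ G ∧ ∀ a, g a ∈ s ↔ a ∈ s := Iff.rfl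

/-- the "rigid situation" -/
structure Rigid [Fintype α] (G : Subgroup (Equiv.Perm α)) (k : ℕ) : Prop where
  k3 : 3 ≤ k
  kn : 2 * k ≤ Fintype.card α
  tr : HT G (k - 2)
  ntr : ¬ HT G (k - 1)
  h1 : HH G (k - 1)
  h2 : HH G k

/-- context of the semiregular case: `Λ₀` a `(t-1)`-set, `x ∉ Λ₀`, `F` the Frobenius kernel of the
pointwise stabiliser of `Λ₀` -/
structure Ctx [Fintype α] (G : Subgroup (Equiv.Perm α)) (t : ℕ) (Λ₀ : Finset α) (x : α)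
    (F : Subgroup (Equiv.Perm α)) : Prop where
  t4 : 4 ≤ t
  n4 : t + 4 ≤ Fintype.card α
  hT : HT G t
  triv : Triv G (t + 1)
  noinv : NoInv G t
  card : Λ₀.card + 1 = t
  xn : x ∉ Λ₀
  nontriv : ∃ g ∈ G, g ≠ 1 ∧ (∀ p ∈ Λ₀, g p = p) ∧ g x = x
  FG : F ≤ G
  Ffix : ∀ f ∈ F, ∀ p ∈ Λ₀, f p = p
  Ftr : ∀ y : α, y ∉ Λ₀ → ∃ f ∈ F, f x = y
  Ffree : ∀ f ∈ F, f x = x → f = 1
  Fnorm : ∀ g ∈ G, (∀ p ∈ Λ₀, g p ∈ Λ₀) → ∀ f ∈ F, g * f * g⁻¹ ∈ F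
  Fnil : Group.IsNilpotent ↥F

/-- two involutions of `G` inducing the transpositions `(p₁ p₂)` and `(p₁ p₃)` on `Λ₀` and
fixing `x` -/
structure Pair (G : Subgroup (Equiv.Perm α)) (Λ₀ : Finset α) (x p₁ p₂ p₃ : α)
    (a a' : Equiv.Perm α) : Prop where
  m1 : p₁ ∈ Λ₀
  m2 : p₂ ∈ Λ₀
  m3 : p₃ ∈ Λ₀
  n12 : p₁ ≠ p₂
  n13 : p₁ ≠ p₃
  n23 : p₂ ≠ p₃
  aG : a ∈ G
  a'G : a' ∈ G
  a2 : a * a = 1
  a'2 : a' * a' = 1
  a12 : a p₁ = p₂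
  a21 : a p₂ = p₁
  afix : ∀ s ∈ Λ₀, s ≠ p₁ → s ≠ p₂ → a s = s
  ax : a x = x
  a'13 : a' p₁ = p₃
  a'31 : a' p₃ = p₁
  a'fix : ∀ s ∈ Λ₀, s ≠ p₁ → s ≠ p₃ → a' s = s
  a'x : a' x = x

end defs

/-! ## Bridges and counting -/

/-- [BRT] -/
def PkgBrT : Prop := ∀ {α : Type u} [Fintype α] [DecidableEq α] (G : Subgroup (Equiv.Perm α))
  (j : ℕ), MulAction.IsMultiplyPretransitive G α j ↔ HT G j

/-- [BRH] -/
def PkgBrH : Prop := ∀ {α : Type u} [Fintype α] [DecidableEq α] (G : Subgroup (Equiv.Perm α))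
  (j : ℕ), MulAction.IsPretransitive G (Set.powersetCard α j) ↔ HH G j

/-- [EXT] the `Finset` form of `t`-transitivity: every injective map on a `t`-set is induced -/
def PkgExt : Prop := ∀ {α : Type u} [Fintype α] [DecidableEq α] (G : Subgroup (Equiv.Perm α))
  (t : ℕ) (Λ : Finset α) (φ : α → α), Λ.card = t → HT G t → Set.InjOn φ (Λ : Set α) →
  ∃ g ∈ G, ∀ a ∈ Λ, g a = φ a

/-- [MONO] -/
def PkgMono : Prop := ∀ {α : Type u} [Fintype α] [DecidableEq α] (G : Subgroup (Equiv.Perm α))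
  (i j : ℕ), i ≤ j → j ≤ Fintype.card α → HT G j → HT G i

/-- [CNTT] orbit-stabiliser for ordered tuples -/
def PkgCntT : Prop := ∀ {α : Type u} [Fintype α] [DecidableEq α] (G : Subgroup (Equiv.Perm α))
  (j : ℕ) (s : Finset α), s.card = j → HT G j →
  Nat.card G = (Fintype.card α).descFactorial j * Nat.card (PS G s)

/-- [CNTH] orbit-stabiliser for subsets -/
def PkgCntH : Prop := ∀ {α : Type u} [Fintype α] [DecidableEq α] (G : Subgroup (Equiv.Perm α))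
  (j : ℕ) (s : Finset α), s.card = j → HH G j →
  Nat.card G = (Fintype.card α).choose j * Nat.card (SS G s)

/-- [FREE] a pointwise stabiliser acting freely on the other points -/
def PkgFree : Prop := ∀ {α : Type u} [Fintype α] [DecidableEq α] (G : Subgroup (Equiv.Perm α))
  (s : Finset α), Triv G (s.card + 1) → Nat.card (PS G s) ∣ Fintype.card α - s.card

/-- [NT] -/
def PkgNT : Prop := ∀ {α : Type u} [Fintype α] [DecidableEq α] (G : Subgroup (Equiv.Perm α))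
  (t : ℕ) (s : Finset α), s.card = t → HT G t → Triv G (t + 1) → ¬ HT G (t + 1) →
  Nat.card (PS G s) ≠ Fintype.card α - t

/-- [TRANSP] an involution inducing a prescribed transposition on a `t`-set -/
def PkgTransp : Prop := ∀ {α : Type u} [Fintype α] [DecidableEq α] (G : Subgroup (Equiv.Perm α))
  (t : ℕ) (Λ : Finset α) (p q : α), Λ.card = t → HT G t → NoInv G t → p ∈ Λ → q ∈ Λ → p ≠ q →
  ∃ a ∈ G, a * a = 1 ∧ a p = q ∧ a q = p ∧ ∀ s ∈ Λ, s ≠ p → s ≠ q → a s = s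

/-! ## Abstract group theory -/

/-- [INVERT] a fixed-point-free involution inverts -/
def PkgInvert : Prop := ∀ {Γ : Type u} [Group Γ] (F : Subgroup Γ) [Finite F] (a : Γ),
  a * a = 1 → (∀ f ∈ F, a * f * a⁻¹ ∈ F) → (∀ f ∈ F, a * f * a⁻¹ = f → f = 1) →
  ∀ f ∈ F, a * f * a⁻¹ = f⁻¹

/-- [ABS1A] -/
def PkgAbs1a : Prop := ∀ {Γ : Type u} [Group Γ] (F K : Subgroup Γ) [Finite F] [Finite K] (a : Γ),
  Group.IsNilpotent ↥F → Odd (Nat.card K) → K ≠ ⊥ →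
  (∀ κ ∈ K, ∀ f ∈ F, κ * f * κ⁻¹ ∈ F) →
  (∀ κ ∈ K, κ ≠ 1 → ∀ f ∈ F, κ * f * κ⁻¹ = f → f = 1) →
  a * a = 1 → (∀ f ∈ F, a * f * a⁻¹ ∈ F) →
  Nat.card {f : F // a * (f : Γ) * a⁻¹ = f} = 2 →
  Nat.card K = 3 ∧ ∃ P : Subgroup Γ, P ≤ F ∧ Nat.card P = 4 ∧ ¬ 8 ∣ Nat.card F ∧
    (∀ e ∈ P, e * e = 1) ∧ (∀ f ∈ F, f * f = 1 → f ∈ P) ∧
    (∀ g : Γ, (∀ f ∈ F, g * f * g⁻¹ ∈ F) → ∀ e ∈ P, g * e * g⁻¹ ∈ P)

/-- [ABS1B] -/
def PkgAbs1b : Prop := ∀ {Γ : Type u} [Group Γ] (F P : Subgroup Γ) (b : Γ),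
  P ≤ F → Nat.card P = 4 → (∀ e ∈ P, e * e = 1) → (∀ f ∈ F, f * f = 1 → f ∈ P) →
  b * b = 1 → (∀ f ∈ F, b * f * b⁻¹ ∈ F) → (∀ e ∈ P, b * e * b⁻¹ ∈ P) →
  Nat.card {f : F // b * (f : Γ) * b⁻¹ = f} = 2 →
  ∀ f ∈ F, f⁻¹ * (b * f * b⁻¹) ∈ P → f ∈ P

/-- [ABS2] -/
def PkgAbs2 : Prop := ∀ {Γ : Type u} [Group Γ] (F P : Subgroup Γ) [Finite F] (b b' : Γ),
  P ≤ F → (∀ f ∈ F, ∀ e ∈ P, f * e * f⁻¹ ∈ P) → b * b = 1 → b' * b' = 1 →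
  (∀ f ∈ F, b * f * b⁻¹ ∈ F) → (∀ f ∈ F, b' * f * b'⁻¹ ∈ F) →
  (∀ e ∈ P, b * e * b⁻¹ ∈ P) → (∀ e ∈ P, b' * e * b'⁻¹ ∈ P) →
  (∀ f ∈ F, f⁻¹ * (b * f * b⁻¹) ∈ P → f ∈ P) → (∀ f ∈ F, f⁻¹ * (b' * f * b'⁻¹) ∈ P → f ∈ P) →
  ∀ f ∈ F, f⁻¹ * ((b * b') * f * (b * b')⁻¹) ∈ P

/-- [ABS3] -/
def PkgAbs3 : Prop := ∀ {Γ : Type u} [Group Γ] (F P : Subgroup Γ) [Finite F] (d : Γ),
  P ≤ F → Nat.card P = 4 → d ^ 9 = 1 → (∀ f ∈ F, d * f * d⁻¹ ∈ F) →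
  (∀ e ∈ P, d * e * d⁻¹ ∈ P) → (∀ f ∈ F, f⁻¹ * (d * f * d⁻¹) ∈ P) →
  Nat.card F ≤ 4 * Nat.card {f : F // d * (f : Γ) * d⁻¹ = f}

/-! ## The rigid situation -/

/-- [KER] the Frobenius kernel of a pointwise stabiliser -/
def PkgKer : Prop := ∀ {α : Type u} [Fintype α] [DecidableEq α] (G : Subgroup (Equiv.Perm α))
  (Λ₀ : Finset α) (x : α), x ∉ Λ₀ →
  (∀ y : α, y ∉ Λ₀ → ∃ g ∈ G, (∀ p ∈ Λ₀, g p = p) ∧ g x = y) →
  (∀ g ∈ G, (∀ p ∈ Λ₀, g p = p) → ∀ y z : α, y ∉ Λ₀ → z ∉ Λ₀ → y ≠ z → g y = y → g z = z →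
    g = 1) →
  (∃ g ∈ G, g ≠ 1 ∧ (∀ p ∈ Λ₀, g p = p) ∧ g x = x) →
  ∃ F : Subgroup (Equiv.Perm α), F ≤ G ∧ (∀ f ∈ F, ∀ p ∈ Λ₀, f p = p) ∧
    (∀ y : α, y ∉ Λ₀ → ∃ f ∈ F, f x = y) ∧ (∀ f ∈ F, f x = x → f = 1) ∧
    (∀ g ∈ G, (∀ p ∈ Λ₀, g p ∈ Λ₀) → ∀ f ∈ F, g * f * g⁻¹ ∈ F) ∧ Group.IsNilpotent ↥F

/-- [R1] -/
def PkgR1 : Prop := ∀ {α : Type u} [Fintype α] [DecidableEq α] (G : Subgroup (Equiv.Perm α))
  (k : ℕ), Rigid G k → Triv G (k - 1)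

/-- [R2] -/
def PkgR2 : Prop := ∀ {α : Type u} [Fintype α] [DecidableEq α] (G : Subgroup (Equiv.Perm α))
  (k : ℕ), Rigid G k → Triv G (k - 1) → NoInv G (k - 2)

/-- [K3] -/
def PkgK3 : Prop := ∀ {α : Type u} [Fintype α] [DecidableEq α] (G : Subgroup (Equiv.Perm α)),
  Rigid G 3 → Triv G 2 → NoInv G 1 → False

/-- [K4] -/
def PkgK4 : Prop := ∀ {α : Type u} [Fintype α] [DecidableEq α] (G : Subgroup (Equiv.Perm α)),
  Rigid G 4 → Triv G 3 → NoInv G 2 → False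

/-- [K5] -/
def PkgK5 : Prop := ∀ {α : Type u} [Fintype α] [DecidableEq α] (G : Subgroup (Equiv.Perm α)),
  Rigid G 5 → Triv G 4 → NoInv G 3 → False

/-- [K524] the case `n = 24` of `k = 5` -/
def PkgK524 : Prop := ∀ {α : Type u} [Fintype α] [DecidableEq α] (G : Subgroup (Equiv.Perm α)),
  Fintype.card α = 24 → HT G 3 → Triv G 4 →
  (∀ s : Finset α, s.card = 3 → Nat.card (PS G s) = 7) → False

/-- [SHARP] no sharply `t`-transitive group, `t ≥ 4`, of degree `≥ t + 8` -/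
def PkgSharp : Prop := ∀ {α : Type u} [Fintype α] [DecidableEq α] (G : Subgroup (Equiv.Perm α))
  (t : ℕ), 4 ≤ t → HT G t → Triv G t → t + 8 ≤ Fintype.card α → False

/-- [PAR] parity of the numbers of fixed points -/
def PkgPar : Prop := ∀ {α : Type u} [Fintype α] [DecidableEq α] (G : Subgroup (Equiv.Perm α))
  (t : ℕ) (Λ₀ : Finset α) (x : α) (F : Subgroup (Equiv.Perm α)) (p₁ p₂ p₃ : α)
  (a a' : Equiv.Perm α), Ctx G t Λ₀ x F → Pair G Λ₀ x p₁ p₂ p₃ a a' →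
  ((∃ y, y ∉ Λ₀ ∧ y ≠ x ∧ a y = y) ↔ (∃ y, y ∉ Λ₀ ∧ y ≠ x ∧ a' y = y))

/-- [EVEN] -/
def PkgEven : Prop := ∀ {α : Type u} [Fintype α] [DecidableEq α] (G : Subgroup (Equiv.Perm α))
  (t : ℕ) (Λ₀ : Finset α) (x : α) (F : Subgroup (Equiv.Perm α)) (p₁ p₂ p₃ : α)
  (a a' : Equiv.Perm α), Ctx G t Λ₀ x F → Pair G Λ₀ x p₁ p₂ p₃ a a' →
  (∀ y, y ∉ Λ₀ → y ≠ x → a y ≠ y) → (∀ y, y ∉ Λ₀ → y ≠ x → a' y ≠ y) → False

/-- [ODD] -/
def PkgOdd : Prop := ∀ {α : Type u} [Fintype α] [DecidableEq α] (G : Subgroup (Equiv.Perm α))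
  (t : ℕ) (Λ₀ : Finset α) (x : α) (F : Subgroup (Equiv.Perm α)) (p₁ p₂ p₃ : α)
  (a a' : Equiv.Perm α), Ctx G t Λ₀ x F → Pair G Λ₀ x p₁ p₂ p₃ a a' →
  (∃ y, y ∉ Λ₀ ∧ y ≠ x ∧ a y = y) → (∃ y, y ∉ Λ₀ ∧ y ≠ x ∧ a' y = y) → False

/-- [SEMI] no `t`-transitive group, `t ≥ 4`, of degree `≥ t + 4` whose `(t+1)`-point stabilisers
are trivial and whose `t`-point stabilisers are nontrivial of odd order -/
def PkgSemi : Prop := ∀ {α : Type u} [Fintype α] [DecidableEq α] (G : Subgroup (Equiv.Perm α))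
  (t : ℕ), 4 ≤ t → HT G t → Triv G (t + 1) → NoInv G t → ¬ Triv G t →
  t + 4 ≤ Fintype.card α → False

/-- the rigid situation does not occur -/
def PkgRigid : Prop := ∀ {α : Type u} [Fintype α] [DecidableEq α] (G : Subgroup (Equiv.Perm α))
  (k : ℕ), Rigid G k → False

/-- [MAIN] the induction -/
def PkgMain : Prop := PkgRigid.{u} →
  ∀ {α : Type u} [Fintype α] [DecidableEq α] (G : Subgroup (Equiv.Perm α)) (k : ℕ),
    2 ≤ k → 2 * k ≤ Fintype.card α → HH G k → HT G (k - 1)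

end Cfsg.Agent.Lib.Helper75.LW
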