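import Mathlib
import Cfsg.Agent.Lib.Helper75.LW.Defs

/-!
# S0746 (project LW): assembly
-/

set_option autoImplicit false

namespace Cfsg.Agent.Lib.Helper75.LW

universe u

theorem pkgSemi_of (hExt : PkgExt.{u}) (hKer : PkgKer.{u}) (hTransp : PkgTransp.{u})
    (hPar : PkgPar.{u}) (hEven : PkgEven.{u}) (hOdd : PkgOdd.{u}) : PkgSemi.{u} := by
  intro α _ _ G t ht hT htriv hnoinv hnt hn
  unfold Triv at hnt
  push Not at hnt
  obtain ⟨Λ, hΛ, g, hgG, hgfix, hg1⟩ := hnt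
  have hΛne : Λ.Nonempty := by rw [← Finset.card_pos]; omega
  obtain ⟨x, hx⟩ := hΛne
  have hcard : (Λ.erase x).card + 1 = t := by rw [Finset.card_erase_of_mem hx]; omega
  have hxn : x ∉ Λ.erase x := Finset.notMem_erase x Λ
  have hgfix0 : ∀ p ∈ Λ.erase x, g p = p := fun p hp => hgfix p (Finset.mem_of_mem_erase hp)
  have h1 : ∀ y : α, y ∉ Λ.erase x → ∃ g ∈ G, (∀ p ∈ Λ.erase x, g p = p) ∧ g x = y := by
    intro y hy
    obtain ⟨g', hg'G, hg'⟩ := hExt G t Λ (fun a => if a = x then y else a) hΛ hT (by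
      intro a ha b hb hab
      simp only at hab
      by_cases h1 : a = x <;> by_cases h2 : b = x
      · rw [h1, h2]
      · rw [if_pos h1, if_neg h2] at hab
        exact absurd (hab ▸ Finset.mem_erase.2 ⟨h2, hb⟩) hy
      · rw [if_neg h1, if_pos h2] at hab
        exact absurd (hab ▸ Finset.mem_erase.2 ⟨h1, ha⟩) hy
      · rw [if_neg h1, if_neg h2] at hab; exact hab)
    refine ⟨g', hg'G, fun p hp => ?_, ?_⟩
    · have := hg' p (Finset.mem_of_mem_erase hp)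
      rw [if_neg (Finset.ne_of_mem_erase hp)] at this; exact this
    · have := hg' x hx
      rw [if_pos rfl] at this; exact this
  have h2 : ∀ g ∈ G, (∀ p ∈ Λ.erase x, g p = p) → ∀ y z : α, y ∉ Λ.erase x → z ∉ Λ.erase x →
      y ≠ z → g y = y → g z = z → g = 1 := by
    intro g' hg'G hg' y z hy hz hyz hgy hgz
    have hyn : y ∉ insert z (Λ.erase x) := by
      simp only [Finset.mem_insert, not_or]; exact ⟨hyz, hy⟩
    apply htriv (insert y (insert z (Λ.erase x))) ?_ g' hg'G ?_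
    · rw [Finset.card_insert_of_notMem hyn, Finset.card_insert_of_notMem hz]; omega
    · intro a ha
      simp only [Finset.mem_insert] at ha
      rcases ha with rfl | rfl | ha
      · exact hgy
      · exact hgz
      · exact hg' a ha
  have h3 : ∃ g ∈ G, g ≠ 1 ∧ (∀ p ∈ Λ.erase x, g p = p) ∧ g x = x :=
    ⟨g, hgG, hg1, hgfix0, hgfix x hx⟩
  obtain ⟨F, hFG, hFfix, hFtr, hFfree, hFnorm, hFnil⟩ := hKer G (Λ.erase x) x hxn h1 h2 h3
  have hctx : Ctx G t (Λ.erase x) x F :=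
    ⟨ht, hn, hT, htriv, hnoinv, hcard, hxn, h3, hFG, hFfix, hFtr, hFfree, hFnorm, hFnil⟩
  obtain ⟨p₁, hp1, p₂, hp2, p₃, hp3, h12, h13, h23⟩ :=
    Finset.two_lt_card.1 (by omega : 2 < (Λ.erase x).card)
  obtain ⟨a, haG, ha2, ha12, ha21, hafix⟩ := hTransp G t Λ p₁ p₂ hΛ hT hnoinv
    (Finset.mem_of_mem_erase hp1) (Finset.mem_of_mem_erase hp2) h12
  obtain ⟨a', ha'G, ha'2, ha'13, ha'31, ha'fix⟩ := hTransp G t Λ p₁ p₃ hΛ hT hnoinv
    (Finset.mem_of_mem_erase hp1) (Finset.mem_of_mem_erase hp3) h13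
  have hpair : Pair G (Λ.erase x) x p₁ p₂ p₃ a a' :=
    { m1 := hp1, m2 := hp2, m3 := hp3, n12 := h12, n13 := h13, n23 := h23, aG := haG,
      a'G := ha'G, a2 := ha2, a'2 := ha'2, a12 := ha12, a21 := ha21
      afix := fun s hs h1 h2 => hafix s (Finset.mem_of_mem_erase hs) h1 h2
      ax := hafix x hx (fun h => hxn (h ▸ hp1)) (fun h => hxn (h ▸ hp2))
      a'13 := ha'13, a'31 := ha'31
      a'fix := fun s hs h1 h2 => ha'fix s (Finset.mem_of_mem_erase hs) h1 h2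
      a'x := ha'fix x hx (fun h => hxn (h ▸ hp1)) (fun h => hxn (h ▸ hp3)) }
  have hpar := hPar G t (Λ.erase x) x F p₁ p₂ p₃ a a' hctx hpair
  by_cases hex : ∃ y, y ∉ Λ.erase x ∧ y ≠ x ∧ a y = y
  · exact hOdd G t (Λ.erase x) x F p₁ p₂ p₃ a a' hctx hpair hex (hpar.1 hex)
  · have hex' : ¬ ∃ y, y ∉ Λ.erase x ∧ y ≠ x ∧ a' y = y := fun h => hex (hpar.2 h)
    push Not at hex hex'
    exact hEven G t (Λ.erase x) x F p₁ p₂ p₃ a a' hctx hpair hex hex'

theorem pkgRigid_of (hR1 : PkgR1.{u}) (hR2 : PkgR2.{u}) (hK3 : PkgK3.{u}) (hK4 : PkgK4.{u})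
    (hK5 : PkgK5.{u}) (hSharp : PkgSharp.{u}) (hSemi : PkgSemi.{u}) : PkgRigid.{u} := by
  intro α _ _ G k hr
  have h1 := hR1 G k hr
  have h2 := hR2 G k hr h1
  have hk3 := hr.k3
  have hkn := hr.kn
  by_cases hk : k ≤ 5
  · interval_cases k
    · exact hK3 G hr h1 h2
    · exact hK4 G hr h1 h2
    · exact hK5 G hr h1 h2
  · have ht : 4 ≤ k - 2 := by omega
    have e1 : k - 2 + 1 = k - 1 := by omega
    have h1' : Triv G (k - 2 + 1) := by rw [e1]; exact h1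
    by_cases htriv : Triv G (k - 2)
    · exact hSharp G (k - 2) ht hr.tr htriv (by omega)
    · exact hSemi G (k - 2) ht hr.tr h1' h2 htriv (by omega)

theorem s0746_of (hBrT : PkgBrT.{u}) (hBrH : PkgBrH.{u}) (hMain : PkgMain.{u})
    (hRigid : PkgRigid.{u}) {α : Type u} [Fintype α] [DecidableEq α]
    (G : Subgroup (Equiv.Perm α)) {k : ℕ} (hk : 2 ≤ k) (hkn : 2 * k ≤ Fintype.card α)
    (hh : MulAction.IsPretransitive G (Set.powersetCard α k)) :
    MulAction.IsMultiplyPretransitive G α (k - 1) :=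
  (hBrT G (k - 1)).2 (hMain hRigid G k hk hkn ((hBrH G k).1 hh))

end Cfsg.Agent.Lib.Helper75.LW
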