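import Mathlib
import Cfsg.Agent.Lib.Helper75.LW.Defs

/-!
# S0746 (project LW): package [R2] (backup copy by helper75)
-/

set_option autoImplicit false

namespace Cfsg.Agent.Lib.Helper75.LW

universe u

section

variable {α : Type u} [Fintype α] [DecidableEq α]

omit [Fintype α] [DecidableEq α] in
/-- an enumeration of a finset of card `t` -/
theorem exists_enum (s : Finset α) (t : ℕ) (hs : s.card = t) :
    ∃ e : Fin t ↪ α, ∀ a, a ∈ s ↔ ∃ i, e i = a := by
  refine ⟨(Finset.equivFinOfCardEq hs).symm.toEmbedding.trans (Function.Embedding.subtype _), ?_⟩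
  intro a
  constructor
  · intro ha
    refine ⟨Finset.equivFinOfCardEq hs ⟨a, ha⟩, ?_⟩
    simp
  · rintro ⟨i, rfl⟩
    simp

/-- (a) conjugating an involution fixing a `t`-set to any other `t`-set -/
theorem r2_a (G : Subgroup (Equiv.Perm α)) (t : ℕ) (hT : HT G t) (s : Finset α) (hs : s.card = t)
    (u : Equiv.Perm α) (huG : u ∈ G) (hu2 : u * u = 1) (hu1 : u ≠ 1) (hus : ∀ a ∈ s, u a = a)
    (s' : Finset α) (hs' : s'.card = t) :
    ∃ w ∈ G, w * w = 1 ∧ w ≠ 1 ∧ ∀ a ∈ s', w a = a := by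
  obtain ⟨e, he⟩ := exists_enum s t hs
  obtain ⟨e', he'⟩ := exists_enum s' t hs'
  obtain ⟨g, hgG, hg⟩ := hT e e'
  refine ⟨g * u * g⁻¹, G.mul_mem (G.mul_mem hgG huG) (G.inv_mem hgG), ?_, ?_, ?_⟩
  · calc g * u * g⁻¹ * (g * u * g⁻¹) = g * (u * u) * g⁻¹ := by group
      _ = 1 := by rw [hu2]; group
  · intro h
    apply hu1
    have : u = g⁻¹ * (g * u * g⁻¹) * g := by group
    rw [this, h]; group
  · intro a ha
    obtain ⟨i, rfl⟩ := (he' a).1 ha
    rw [← hg i]
    have h1 : g⁻¹ (g (e i)) = e i := by simp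
    simp only [Equiv.Perm.mul_apply]
    rw [h1, hus _ ((he _).2 ⟨i, rfl⟩)]

/-- (b) transpositions of two points outside a `(t-1)`-set are induced by involutions fixing the
set pointwise -/
theorem r2_b (G : Subgroup (Equiv.Perm α)) (t : ℕ)
    (hinv : ∀ s' : Finset α, s'.card = t → ∃ w ∈ G, w * w = 1 ∧ w ≠ 1 ∧ ∀ a ∈ s', w a = a)
    (htriv : Triv G (t + 1)) (Λ₀ : Finset α) (hΛ₀ : Λ₀.card + 1 = t) (x v : α) (hx : x ∉ Λ₀)
    (hv : v ∉ Λ₀) (hxv : x ≠ v) :
    ∃ w ∈ G, (∀ a ∈ Λ₀, w a = a) ∧ w x = v ∧ w v = x := by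
  classical
  set C : Finset α := Finset.univ \ insert x Λ₀ with hC
  have memC : ∀ y, y ∈ C ↔ y ≠ x ∧ y ∉ Λ₀ := by
    intro y; simp [hC]
  have h1 : ∀ y : α, ∃ w : Equiv.Perm α, y ∈ C →
      (w ∈ G ∧ w * w = 1 ∧ w ≠ 1 ∧ ∀ a ∈ insert y Λ₀, w a = a) := by
    intro y
    by_cases hy : y ∈ C
    · have hy' := (memC y).1 hy
      obtain ⟨w, hw⟩ := hinv (insert y Λ₀) (by rw [Finset.card_insert_of_notMem hy'.2]; exact hΛ₀)
      exact ⟨w, fun _ => hw⟩
    · exact ⟨1, fun h => absurd h hy⟩
  choose W hW using h1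
  -- W y x ∈ C
  have hmaps : ∀ y ∈ C, W y x ∈ C := by
    intro y hy
    obtain ⟨hwG, hw2, hw1, hwfix⟩ := hW y hy
    have hy' := (memC y).1 hy
    rw [memC]
    constructor
    · intro hfix
      apply hw1
      apply htriv (insert x (insert y Λ₀)) ?_ (W y) hwG ?_
      · rw [Finset.card_insert_of_notMem, Finset.card_insert_of_notMem hy'.2]
        · omega
        · simp only [Finset.mem_insert, not_or]
          exact ⟨fun h => hy'.1 h.symm, hx⟩
      · intro a ha
        rw [Finset.mem_insert] at ha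
        rcases ha with rfl | ha
        · exact hfix
        · exact hwfix a ha
    · intro hmem
      have := hwfix (W y x) (Finset.mem_insert_of_mem hmem)
      have h2 : W y x = x := (W y).injective this
      exact hx (h2 ▸ hmem)
  have hinj : Set.InjOn (fun y => W y x) (C : Set α) := by
    intro y hy y' hy' heq
    simp only at heq
    by_contra hne
    have hy1 := Finset.mem_coe.1 hy
    have hy'1 := Finset.mem_coe.1 hy'
    obtain ⟨hwG, hw2, hw1, hwfix⟩ := hW y hy1
    obtain ⟨hwG', hw2', hw1', hwfix'⟩ := hW y' hy'1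
    have hyC := (memC y).1 hy1
    have hy'C := (memC y').1 hy'1
    have hvC := (memC _).1 (hmaps y hy1)
    set v' := W y x with hv'
    -- c = W y * W y' fixes Λ₀, x, v'
    have hWyv : W y v' = x := by
      have : (W y * W y) x = x := by rw [hw2]; rfl
      exact this
    have hWy'v : W y' v' = x := by
      have : (W y' * W y') x = x := by rw [hw2']; rfl
      rw [heq]; exact this
    have hc : W y * W y' = 1 := by
      apply htriv (insert v' (insert x Λ₀)) ?_ _ (G.mul_mem hwG hwG') ?_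
      · rw [Finset.card_insert_of_notMem, Finset.card_insert_of_notMem hx]
        · omega
        · simp only [Finset.mem_insert, not_or]
          exact ⟨hvC.1, hvC.2⟩
      · intro a ha
        rw [Finset.mem_insert, Finset.mem_insert] at ha
        rw [Equiv.Perm.mul_apply]
        rcases ha with rfl | rfl | ha
        · rw [hWy'v]
        · rw [← heq]; exact hWyv
        · rw [hwfix' a (Finset.mem_insert_of_mem ha), hwfix a (Finset.mem_insert_of_mem ha)]
    have heqW : W y = W y' := by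
      have h3 : W y = W y * (W y' * W y') := by rw [hw2', mul_one]
      rw [h3, ← mul_assoc, hc, one_mul]
    apply hw1
    apply htriv (insert y' (insert y Λ₀)) ?_ (W y) hwG ?_
    · rw [Finset.card_insert_of_notMem, Finset.card_insert_of_notMem hyC.2]
      · omega
      · simp only [Finset.mem_insert, not_or]
        exact ⟨fun h => hne h.symm, hy'C.2⟩
    · intro a ha
      rw [Finset.mem_insert] at ha
      rcases ha with rfl | ha
      · rw [heqW]; exact hwfix' _ (Finset.mem_insert_self _ _)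
      · exact hwfix a ha
  have himg : C.image (fun y => W y x) = C := by
    apply Finset.eq_of_subset_of_card_le
    · intro z hz
      obtain ⟨y, hy, rfl⟩ := Finset.mem_image.1 hz
      exact hmaps y hy
    · rw [Finset.card_image_of_injOn hinj]
  have hvC : v ∈ C := (memC v).2 ⟨fun h => hxv h.symm, hv⟩
  rw [← himg] at hvC
  obtain ⟨y, hy, hyv⟩ := Finset.mem_image.1 hvC
  obtain ⟨hwG, hw2, hw1, hwfix⟩ := hW y hy
  refine ⟨W y, hwG, fun a ha => hwfix a (Finset.mem_insert_of_mem ha), hyv, ?_⟩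
  have : (W y * W y) x = x := by rw [hw2]; rfl
  rw [← hyv]; exact this

/-- (c) every permutation of an enumerated `(t+1)`-set is induced -/
theorem r2_c (G : Subgroup (Equiv.Perm α)) (t : ℕ)
    (hb : ∀ (Λ₀ : Finset α), Λ₀.card + 1 = t → ∀ x v : α, x ∉ Λ₀ → v ∉ Λ₀ → x ≠ v →
      ∃ w ∈ G, (∀ a ∈ Λ₀, w a = a) ∧ w x = v ∧ w v = x)
    (y : Fin (t + 1) ↪ α) (ρ : Equiv.Perm (Fin (t + 1))) :
    ∃ h ∈ G, ∀ l, h (y l) = y (ρ l) := by
  induction ρ using Equiv.Perm.swap_induction_on with
  | one => exact ⟨1, G.one_mem, fun l => rfl⟩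
  | swap_mul f i j hij ih =>
    obtain ⟨h, hhG, hh⟩ := ih
    set Λ₀ : Finset α := ((Finset.univ.erase i).erase j).map y with hΛ₀
    have hcard : Λ₀.card + 1 = t := by
      rw [hΛ₀, Finset.card_map, Finset.card_erase_of_mem, Finset.card_erase_of_mem
        (Finset.mem_univ i), Finset.card_univ, Fintype.card_fin]
      · have : 1 ≤ t := by
          by_contra hlt
          have ht0 : t = 0 := by omega
          subst ht0
          exact hij (Subsingleton.elim (α := Fin 1) i j)
        omega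
      · exact Finset.mem_erase.2 ⟨fun h => hij h.symm, Finset.mem_univ j⟩
    have hmem : ∀ l, y l ∈ Λ₀ ↔ l ≠ i ∧ l ≠ j := by
      intro l
      rw [hΛ₀, Finset.mem_map']
      simp only [Finset.mem_erase, Finset.mem_univ, and_true]
      tauto
    obtain ⟨w, hwG, hwfix, hwi, hwj⟩ := hb Λ₀ hcard (y i) (y j)
      (fun h => ((hmem i).1 h).1 rfl) (fun h => ((hmem j).1 h).2 rfl)
      (fun h => hij (y.injective h))
    refine ⟨w * h, G.mul_mem hwG hhG, fun l => ?_⟩
    rw [Equiv.Perm.mul_apply, hh l, Equiv.Perm.mul_apply]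
    by_cases h1 : f l = i
    · rw [h1, Equiv.swap_apply_left]; exact hwi
    · by_cases h2 : f l = j
      · rw [h2, Equiv.swap_apply_right]; exact hwj
      · rw [Equiv.swap_apply_of_ne_of_ne h1 h2]
        exact hwfix _ ((hmem _).2 ⟨h1, h2⟩)

end

/-- [R2] -/
theorem pkgR2 : PkgR2.{u} := by
  intro α _ _ G k hr htriv s hs u huG hu2 hus
  by_contra hu1
  have hk3 := hr.k3
  obtain ⟨t, rfl⟩ : ∃ t, k = t + 2 := ⟨k - 2, by omega⟩
  have e2 : t + 2 - 2 = t := by omega
  have e1 : t + 2 - 1 = t + 1 := by omega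
  rw [e2] at hs
  have hT : HT G t := by have := hr.tr; rwa [e2] at this
  have htriv' : Triv G (t + 1) := by rwa [e1] at htriv
  have hH : HH G (t + 1) := by have := hr.h1; rwa [e1] at this
  have hntr : ¬ HT G (t + 1) := by have := hr.ntr; rwa [e1] at this
  apply hntr
  have ha := r2_a G t hT s hs u huG hu2 hu1 hus
  have hb := fun Λ₀ hΛ₀ x v hx hv hxv => r2_b G t ha htriv' Λ₀ hΛ₀ x v hx hv hxv
  intro x y
  obtain ⟨g, hgG, hg⟩ := hH (Finset.univ.map x) (Finset.univ.map y) (by simp) (by simp)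
  have h1 : ∀ i, ∃ j, y j = g (x i) := by
    intro i
    have := (hg (x i)).1 (by simp)
    simpa using this
  choose π hπ using h1
  have hπinj : Function.Injective π := by
    intro i j hij
    have h2 : g (x i) = g (x j) := by rw [← hπ i, ← hπ j, hij]
    exact x.injective (g.injective h2)
  have hπbij : Function.Bijective π := Finite.injective_iff_bijective.1 hπinj
  obtain ⟨h, hhG, hh⟩ := r2_c G t hb y (Equiv.ofBijective π hπbij).symm
  refine ⟨h * g, G.mul_mem hhG hgG, fun i => ?_⟩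
  rw [Equiv.Perm.mul_apply, ← hπ i, hh]
  congr 1
  exact (Equiv.ofBijective π hπbij).symm_apply_apply i

end Cfsg.Agent.Lib.Helper75.LW
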